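import Mathlib

/-! Orders of `p`-elements in affine groups. -/

set_option autoImplicit false
set_option linter.unusedSectionVars false

namespace Cfsg.Agent.Lib.Helper29

open Module Polynomial

theorem geom_sum_X_eq (p : ℕ) [hp : Fact p.Prime] (s : ℕ) :
    (∑ i ∈ Finset.range (p ^ s), (X : (ZMod p)[X]) ^ i) = (X - 1) ^ (p ^ s - 1) := by
  have h1 : (∑ i ∈ Finset.range (p ^ s), (X : (ZMod p)[X]) ^ i) * (X - 1) = X ^ (p ^ s) - 1 := geom_sum_mul _ _
  have h2 : (X - 1 : (ZMod p)[X]) ^ (p ^ s) = X ^ (p ^ s) - 1 := by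
    rw [sub_pow_char_pow, one_pow]
  have h3 : (X - 1 : (ZMod p)[X]) ^ (p ^ s - 1) * (X - 1) = X ^ (p ^ s) - 1 := by
    rw [← pow_succ, Nat.sub_add_cancel (Nat.one_le_pow _ _ hp.out.pos), h2]
  have h4 : (X - 1 : (ZMod p)[X]) ≠ 0 := X_sub_C_ne_zero (1 : ZMod p) |> fun h => by simpa using h
  exact mul_right_cancel₀ h4 (h1.trans h3.symm)

theorem end_geom_sum_eq_zero {V : Type*} [AddCommGroup V] {p : ℕ} [hp : Fact p.Prime] [Module (ZMod p) V]
    [FiniteDimensional (ZMod p) V] (A : End (ZMod p) V) {r s : ℕ} (hA : A ^ p ^ r = 1)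
    (hs : finrank (ZMod p) V < p ^ s) :
    (∑ i ∈ Finset.range (p ^ s), A ^ i) = 0 ∧ A ^ p ^ s = 1 := by
  have e1 : ∀ k : ℕ, (A - 1) ^ p ^ k = A ^ p ^ k - 1 := by
    intro k
    have h := congrArg (aeval A) (show (X - 1 : (ZMod p)[X]) ^ (p ^ k) = X ^ (p ^ k) - 1 by
      rw [sub_pow_char_pow, one_pow])
    simpa using h
  have h1 : (A - 1) ^ p ^ r = 0 := by rw [e1, hA, sub_self]
  have h2 : (A - 1) ^ finrank (ZMod p) V = 0 := by
    have h3 := Module.End.ker_pow_le_ker_pow_finrank (A - 1) (p ^ r)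
    rw [h1] at h3
    have h4 : LinearMap.ker ((A - 1) ^ finrank (ZMod p) V) = ⊤ := by
      rw [eq_top_iff]
      refine le_trans ?_ h3
      intro v _
      simp
    exact LinearMap.ker_eq_top.mp h4
  have h5 : ∀ k, finrank (ZMod p) V ≤ k → (A - 1) ^ k = 0 := by
    intro k hk
    obtain ⟨j, rfl⟩ := Nat.exists_eq_add_of_le hk
    rw [pow_add, h2, zero_mul]
  constructor
  · have h := congrArg (aeval A) (geom_sum_X_eq p s)
    have h6 : (A - 1) ^ (p ^ s - 1) = 0 := h5 _ (by omega)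
    simpa [h6] using h
  · have h6 := h5 (p ^ s) hs.le
    rw [e1] at h6
    exact sub_eq_zero.mp h6

theorem mulAut_geom_aux {W : Type*} [CommGroup W] [Finite W] {p : ℕ} [hp : Fact p.Prime]
    [Module (ZMod p) (Additive W)] {m : ℕ} (hcard : Nat.card W = p ^ m) (φ : MulAut W) {r s : ℕ}
    (hφ : φ ^ p ^ r = 1) (hs : m < p ^ s) :
    (∀ w : W, (∏ i ∈ Finset.range (p ^ s), (φ ^ i) w) = 1) ∧ φ ^ p ^ s = 1 := by
  haveI : Finite (Additive W) := inferInstanceAs (Finite W)
  haveI : FiniteDimensional (ZMod p) (Additive W) := Module.Finite.of_finite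
  have hdim : finrank (ZMod p) (Additive W) = m := by
    have h1 : Nat.card (Additive W) = p ^ finrank (ZMod p) (Additive W) := by
      rw [Module.natCard_eq_pow_finrank (K := ZMod p) (V := Additive W), Nat.card_zmod]
    have h2 : Nat.card (Additive W) = Nat.card W := rfl
    rw [h2, hcard] at h1
    exact (Nat.pow_right_injective hp.out.two_le h1).symm
  obtain ⟨L, hL⟩ : ∃ L : MulAut W →* End (ZMod p) (Additive W),
      ∀ (a : MulAut W) (x : Additive W), L a x = Additive.ofMul (a (Additive.toMul x)) :=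
    ⟨{ toFun := fun φ => (MonoidHom.toAdditive φ.toMonoidHom).toZModLinearMap p
       map_one' := LinearMap.ext fun x => rfl
       map_mul' := fun a b => LinearMap.ext fun x => rfl }, fun a x => rfl⟩
  have hLinj : Function.Injective L := by
    intro a b hab
    ext w
    have h1 := hL a (Additive.ofMul w)
    rw [hab, hL b] at h1
    exact (Additive.ofMul.injective h1).symm
  obtain ⟨h1, h2⟩ := end_geom_sum_eq_zero (L φ) (r := r) (s := s) (by rw [← L.map_pow, hφ, L.map_one])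
    (hdim ▸ hs)
  constructor
  · intro w
    have h3 := congrArg (fun f : End (ZMod p) (Additive W) => f (Additive.ofMul w)) h1
    simp only [LinearMap.sum_apply, LinearMap.zero_apply, ← L.map_pow, hL] at h3
    apply Additive.ofMul.injective
    rw [ofMul_prod]
    exact h3
  · apply hLinj
    rw [L.map_pow, h2, L.map_one]

theorem mulAut_geom {W : Type*} [CommGroup W] [Finite W] {p : ℕ} [hp : Fact p.Prime]
    (hexp : ∀ w : W, w ^ p = 1) {m : ℕ} (hcard : Nat.card W = p ^ m) (φ : MulAut W) {r s : ℕ}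
    (hφ : φ ^ p ^ r = 1) (hs : m < p ^ s) :
    (∀ w : W, (∏ i ∈ Finset.range (p ^ s), (φ ^ i) w) = 1) ∧ φ ^ p ^ s = 1 := by
  letI : Module (ZMod p) (Additive W) := AddCommGroup.zmodModule (n := p) (by
    intro x
    show Additive.ofMul ((Additive.toMul x) ^ p) = 0
    rw [hexp]; rfl)
  exact mulAut_geom_aux hcard φ hφ hs

theorem mul_pow_eq_of_small {G : Type*} [Group G] [Finite G] {p : ℕ} [hp : Fact p.Prime] (N : Subgroup G)
    [N.Normal] (hNc : ∀ a ∈ N, ∀ b ∈ N, a * b = b * a) (hNp : ∀ n ∈ N, n ^ p = 1) {m : ℕ}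
    (hcard : Nat.card N = p ^ m) (k : G) {r s : ℕ} (hk : (MulAut.conjNormal k : MulAut ↥N) ^ p ^ r = 1)
    (hs : m < p ^ s) (n : G) (hn : n ∈ N) :
    (n * k) ^ p ^ s = k ^ p ^ s ∧ (MulAut.conjNormal k : MulAut ↥N) ^ p ^ s = 1 := by
  letI : CommGroup ↥N :=
    { (inferInstance : Group ↥N) with mul_comm := fun a b => Subtype.ext (hNc a a.2 b b.2) }
  obtain ⟨h1, h2⟩ := mulAut_geom (W := ↥N) (p := p) (fun w => Subtype.ext (hNp w w.2)) hcard
    (MulAut.conjNormal k) hk hs
  refine ⟨?_, h2⟩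
  have h3 : ∀ j : ℕ, (n * k) ^ j =
      ((∏ i ∈ Finset.range j, ((MulAut.conjNormal k : MulAut ↥N) ^ i) ⟨n, hn⟩ : ↥N) : G) * k ^ j := by
    intro j
    induction j with
    | zero => simp
    | succ j ih =>
      rw [pow_succ, ih, Finset.prod_range_succ, Subgroup.coe_mul, ← map_pow, MulAut.conjNormal_apply, pow_succ]
      group
  rw [h3, h1 ⟨n, hn⟩, Subgroup.coe_one, one_mul]

end Cfsg.Agent.Lib.Helper29
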