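import Mathlib

/-!
The Baer trick: a group of odd order and class at most two carries an abelian group structure with the same
automorphisms and the same powers.  Application: fixed points.
-/

set_option autoImplicit false

namespace Cfsg.Agent.Lib.Helper29

open scoped commutatorElement

/-- type synonym carrying the Baer group structure -/
def Baer (Q : Type*) := Q

namespace Baer

variable {Q : Type*} [Group Q]

/-- class at most two -/
def Cl2 (Q : Type*) [Group Q] : Prop := ∀ x y z : Q, ⁅x, y⁆ * z = z * ⁅x, y⁆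

/-- the commutator as an element of the centre -/
def cc (hc : Cl2 Q) (x y : Q) : Subgroup.center Q :=
  ⟨⁅x, y⁆, Subgroup.mem_center_iff.mpr (fun z => (hc x y z).symm)⟩

theorem cen_comm (c : Subgroup.center Q) (z : Q) : (c : Q) * z = z * c :=
  ((Subgroup.mem_center_iff.mp c.2) z).symm

theorem cen_mul_comm (a b : Subgroup.center Q) : a * b = b * a := Subtype.ext (cen_comm a b)

theorem cen_mul_pow (a b : Subgroup.center Q) (e : ℕ) : (a * b) ^ e = a ^ e * b ^ e :=
  Commute.mul_pow (cen_mul_comm a b) e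

theorem cc_mul_left (hc : Cl2 Q) (x y z : Q) : cc hc (x * y) z = cc hc x z * cc hc y z := by
  apply Subtype.ext
  show ⁅x * y, z⁆ = ⁅x, z⁆ * ⁅y, z⁆
  have h1 : ⁅x * y, z⁆ = x * ⁅y, z⁆ * (z * x⁻¹ * z⁻¹) := by
    simp only [commutatorElement_def]; group
  have h2 : ⁅x, z⁆ = x * (z * x⁻¹ * z⁻¹) := by
    simp only [commutatorElement_def]; group
  rw [h1, ← hc y z x, mul_assoc, ← h2, hc]

theorem cc_inv (hc : Cl2 Q) (x y : Q) : cc hc y x = (cc hc x y)⁻¹ := by
  apply Subtype.ext
  show ⁅y, x⁆ = ⁅x, y⁆⁻¹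
  rw [commutatorElement_inv]

theorem cc_mul_right (hc : Cl2 Q) (x y z : Q) : cc hc x (y * z) = cc hc x y * cc hc x z := by
  rw [cc_inv hc (y * z) x, cc_mul_left, cc_inv hc x y, cc_inv hc x z, mul_inv_rev, inv_inv, inv_inv,
    cen_mul_comm]

theorem cc_cen_right (hc : Cl2 Q) (x y : Q) (c : Subgroup.center Q) : cc hc x (y * c) = cc hc x y := by
  rw [cc_mul_right]
  have : cc hc x (c : Q) = 1 := by
    apply Subtype.ext
    show ⁅x, (c : Q)⁆ = 1
    rw [commutatorElement_eq_one_iff_mul_comm]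
    exact (cen_comm c x).symm
  rw [this, mul_one]

theorem cc_cen_left (hc : Cl2 Q) (x y : Q) (c : Subgroup.center Q) : cc hc (y * c) x = cc hc y x := by
  rw [cc_inv hc x (y * c), cc_cen_right, ← cc_inv]

/-- the Baer product -/
def bmul (hc : Cl2 Q) (e : ℕ) (x y : Q) : Q := x * y * ((cc hc y x ^ e : Subgroup.center Q) : Q)

theorem bmul_assoc (hc : Cl2 Q) (e : ℕ) (x y z : Q) :
    bmul hc e (bmul hc e x y) z = bmul hc e x (bmul hc e y z) := by
  unfold bmul
  rw [cc_cen_right, cc_cen_left, cc_mul_right, cc_mul_left, cen_mul_pow, cen_mul_pow]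
  have h1 : x * y * ((cc hc y x ^ e : Subgroup.center Q) : Q) * z *
      ((cc hc z x ^ e * cc hc z y ^ e : Subgroup.center Q) : Q) =
      x * y * z * ((cc hc y x ^ e * (cc hc z x ^ e * cc hc z y ^ e) : Subgroup.center Q) : Q) := by
    rw [mul_assoc (x * y), cen_comm, Subgroup.coe_mul (Subgroup.center Q) (cc hc y x ^ e)]
    simp only [mul_assoc]
  have h2 : x * (y * z * ((cc hc z y ^ e : Subgroup.center Q) : Q)) *
      ((cc hc y x ^ e * cc hc z x ^ e : Subgroup.center Q) : Q) =
      x * y * z * ((cc hc z y ^ e * (cc hc y x ^ e * cc hc z x ^ e) : Subgroup.center Q) : Q) := by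
    rw [Subgroup.coe_mul (Subgroup.center Q) (cc hc z y ^ e)]
    simp only [mul_assoc]
  rw [h1, h2]
  congr 2
  rw [cen_mul_comm (cc hc z y ^ e), mul_assoc]

theorem bmul_comm (hc : Cl2 Q) (e : ℕ) (he : ∀ c : Q, c ^ (2 * e) = c) (x y : Q) :
    bmul hc e x y = bmul hc e y x := by
  unfold bmul
  have h1 : x * y = y * x * (cc hc x y : Q) := by
    show x * y = y * x * ⁅x, y⁆
    rw [← hc]
    simp only [commutatorElement_def]; group
  rw [h1, mul_assoc (y * x)]
  congr 1
  rw [← Subgroup.coe_mul]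
  congr 1
  rw [cc_inv hc x y]
  have h2 : (cc hc x y) ^ (2 * e) = cc hc x y := Subtype.ext (by
    rw [Subgroup.coe_pow]; exact he _)
  calc cc hc x y * (cc hc x y)⁻¹ ^ e = (cc hc x y) ^ (2 * e) * (cc hc x y)⁻¹ ^ e := by rw [h2]
    _ = cc hc x y ^ e := by
      rw [two_mul, pow_add, mul_assoc, inv_pow, mul_inv_cancel, mul_one]

theorem cc_self_pow (hc : Cl2 Q) (x : Q) (n : ℕ) : cc hc x (x ^ n) = 1 := by
  apply Subtype.ext
  show ⁅x, x ^ n⁆ = 1
  rw [commutatorElement_eq_one_iff_mul_comm]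
  exact (Commute.self_pow x n)

/-- the Baer abelian group -/
@[reducible] def commGroup (hc : Cl2 Q) (e : ℕ) (he : ∀ c : Q, c ^ (2 * e) = c) : CommGroup (Baer Q) where
  mul := fun (x y : Q) => @bmul Q _ hc e x y
  mul_assoc := @bmul_assoc Q _ hc e
  one := (1 : Q)
  one_mul := fun (x : Q) => by
    show bmul hc e 1 x = x
    unfold bmul
    have : cc hc x 1 = 1 := by simpa using cc_self_pow hc x 0
    rw [this, one_pow]; simp
  mul_one := fun (x : Q) => by
    show bmul hc e x 1 = x
    unfold bmul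
    have : cc hc 1 x = 1 := by
      rw [cc_inv hc x 1]
      have : cc hc x 1 = 1 := by simpa using cc_self_pow hc x 0
      rw [this, inv_one]
    rw [this, one_pow]; simp
  inv := fun (x : Q) => (x⁻¹ : Q)
  inv_mul_cancel := fun (x : Q) => by
    show bmul hc e (x⁻¹ : Q) x = (1 : Q)
    unfold bmul
    have : cc hc x x⁻¹ = 1 := by
      apply Subtype.ext
      show ⁅x, x⁻¹⁆ = 1
      rw [commutatorElement_eq_one_iff_mul_comm]; simp
    rw [this, one_pow]; simp
  mul_comm := @bmul_comm Q _ hc e he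

/-- the data needed for the Baer structure -/
class Data (Q : Type*) [Group Q] where
  hc : Cl2 Q
  e : ℕ
  he : ∀ c : Q, c ^ (2 * e) = c

instance instCommGroup [d : Data Q] : CommGroup (Baer Q) := commGroup d.hc d.e d.he

/-- the identity map to the synonym -/
def toB (x : Q) : Baer Q := x

/-- the identity map from the synonym -/
def ofB (x : Baer Q) : Q := x

theorem ofB_mul [d : Data Q] (x y : Baer Q) : ofB (x * y) = bmul d.hc d.e (ofB x) (ofB y) := rfl

theorem ofB_one [Data Q] : ofB (1 : Baer Q) = (1 : Q) := rfl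

theorem ofB_injective : Function.Injective (ofB : Baer Q → Q) := fun _ _ h => h

theorem ofB_pow [d : Data Q] (x : Baer Q) (n : ℕ) : ofB (x ^ n) = (ofB x) ^ n := by
  induction n with
  | zero => rw [pow_zero, pow_zero, ofB_one]
  | succ n ih =>
    rw [pow_succ, ofB_mul, ih]
    unfold bmul
    rw [cc_self_pow, one_pow]
    simp [pow_succ]

/-- an automorphism of `Q` is an endomorphism of the Baer group -/
def bm [d : Data Q] (φ : MulAut Q) : Baer Q →* Baer Q where
  toFun := fun x => toB (φ (ofB x))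
  map_one' := map_one φ
  map_mul' := fun x y => by
    apply ofB_injective
    rw [ofB_mul]
    show φ (ofB (x * y)) = bmul d.hc d.e (φ (ofB x)) (φ (ofB y))
    rw [ofB_mul]
    unfold bmul
    rw [map_mul, map_mul, Subgroup.coe_pow, Subgroup.coe_pow, map_pow]
    congr 2
    exact map_commutatorElement φ (ofB y) (ofB x)

theorem ofB_bm [Data Q] (φ : MulAut Q) (x : Baer Q) : ofB (bm φ x) = φ (ofB x) := rfl

end Baer

open Baer in
/-- **Fixed points via the Baer trick.** -/
theorem baer_fixed {Q : Type*} [Group Q] [Finite Q] (p : ℕ) [hpp : Fact p.Prime] (hp : p ≠ 2)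
    (hQ : IsPGroup p Q) (hc : Baer.Cl2 Q) (K A : Subgroup (MulAut Q)) (hK : (Nat.card K).Coprime p)
    (hA : IsPGroup p A) (hAK : A ≤ Subgroup.normalizer (K : Set (MulAut Q))) (hK1 : K ≠ ⊥) :
    ∃ x : Q, x ≠ 1 ∧ x ^ p = 1 ∧ (∀ a ∈ A, a x = x) ∧ ∃ k ∈ K, k x ≠ x := by
  classical
  obtain ⟨n, hn⟩ := IsPGroup.iff_card.mp hQ
  have hodd : Odd (Nat.card Q) := by
    rw [hn]
    exact Odd.pow (hpp.out.odd_of_ne_two hp)
  obtain ⟨m, hm⟩ := hodd
  letI d : Data Q := ⟨hc, m + 1, fun c => by
    have : 2 * (m + 1) = Nat.card Q + 1 := by omega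
    rw [this, pow_succ, pow_card_eq_one', one_mul]⟩
  haveI : Finite (Baer Q) := inferInstanceAs (Finite Q)
  haveI : Fintype K := Fintype.ofFinite K
  have hcardB : Nat.card (Baer Q) = p ^ n := hn
  -- the norm map
  let N : Baer Q →* Baer Q := ∏ k : K, bm (k : MulAut Q)
  have hN : ∀ u : Baer Q, N u = ∏ k : K, bm (k : MulAut Q) u := fun u => by
    simp only [N, MonoidHom.finsetProd_apply]
  have hNk : ∀ (k : K) (u : Baer Q), N (bm (k : MulAut Q) u) = N u := by
    intro k u
    rw [hN, hN]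
    exact Fintype.prod_equiv (Equiv.mulRight k) _ _ (fun k' => rfl)
  have hNa : ∀ a ∈ A, ∀ u : Baer Q, N (bm a u) = bm a (N u) := by
    intro a ha u
    rw [hN, hN, map_prod]
    have hconj : ∀ k : K, a⁻¹ * (k : MulAut Q) * a ∈ K := by
      intro k
      have := (Subgroup.mem_normalizer_iff.mp (inv_mem (hAK ha)) (k : MulAut Q)).mp k.2
      simpa using this
    have hconj' : ∀ k : K, a * (k : MulAut Q) * a⁻¹ ∈ K := by
      intro k
      exact (Subgroup.mem_normalizer_iff.mp (hAK ha) (k : MulAut Q)).mp k.2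
    let σ : K ≃ K :=
      { toFun := fun k => ⟨a⁻¹ * (k : MulAut Q) * a, hconj k⟩
        invFun := fun k => ⟨a * (k : MulAut Q) * a⁻¹, hconj' k⟩
        left_inv := fun k => Subtype.ext (by simp [mul_assoc])
        right_inv := fun k => Subtype.ext (by simp [mul_assoc]) }
    refine Fintype.prod_equiv σ _ _ (fun k => ?_)
    apply ofB_injective
    show (k : MulAut Q) (a (ofB u)) = a ((a⁻¹ * (k : MulAut Q) * a) (ofB u))
    rw [MulAut.mul_apply, MulAut.mul_apply, MulAut.apply_inv_self]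
  -- the kernel
  let S : Subgroup (Baer Q) := N.ker
  have hSfix : ∀ u ∈ S, (∀ k ∈ K, bm k u = u) → u = 1 := by
    intro u hu hk
    have h1 : N u = u ^ Nat.card K := by
      rw [hN, Finset.prod_congr rfl (fun (k : K) _ => hk (k : MulAut Q) k.2), Finset.prod_const,
        Finset.card_univ, Nat.card_eq_fintype_card]
    have h2 : u ^ Nat.card K = 1 := by rw [← h1]; exact hu
    have h3 : u ^ (p ^ n) = 1 := by rw [← hcardB]; exact pow_card_eq_one'
    have h4 : orderOf u ∣ Nat.gcd (Nat.card K) (p ^ n) :=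
      Nat.dvd_gcd (orderOf_dvd_of_pow_eq_one h2) (orderOf_dvd_of_pow_eq_one h3)
    rw [Nat.Coprime.pow_right n hK, Nat.dvd_one, orderOf_eq_one_iff] at h4
    exact h4
  have hS1 : S ≠ ⊥ := by
    intro hbot
    apply hK1
    rw [Subgroup.eq_bot_iff_forall]
    intro k hk
    ext u
    have h1 : bm k (toB u) * (toB u)⁻¹ ∈ S := by
      show N _ = 1
      rw [map_mul, map_inv, hNk ⟨k, hk⟩, mul_inv_cancel]
    rw [hbot, Subgroup.mem_bot, mul_inv_eq_one] at h1
    exact congrArg ofB h1
  letI act : MulAction A S :=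
    { smul := fun a s => ⟨bm (a : MulAut Q) s, by
        show N _ = 1
        rw [hNa a a.2, show N (s : Baer Q) = 1 from s.2, map_one]⟩
      one_smul := fun s => Subtype.ext rfl
      mul_smul := fun a b s => Subtype.ext rfl }
  have hpS : p ∣ Nat.card S := by
    have h1 : Nat.card S ∣ p ^ n := hcardB ▸ Subgroup.card_subgroup_dvd_card S
    obtain ⟨j, -, hj⟩ := (Nat.dvd_prime_pow hpp.out).mp h1
    rcases j with _ | j
    · exfalso
      apply hS1
      rw [pow_zero] at hj
      exact (Subgroup.card_eq_one).mp hj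
    · rw [hj]
      exact dvd_pow_self p (Nat.succ_ne_zero j)
  have h1fix : (1 : S) ∈ MulAction.fixedPoints A S := by
    intro a
    exact Subtype.ext (map_one (bm (a : MulAut Q)))
  obtain ⟨b, hb, hb1⟩ := hA.exists_fixed_point_of_prime_dvd_card_of_fixed_point S hpS h1fix
  have hbfix : ∀ a ∈ A, bm a (b : Baer Q) = b := fun a ha => congrArg Subtype.val (hb ⟨a, ha⟩)
  -- an element of order `p` in `⟨b⟩`
  have hbne : (b : Baer Q) ≠ 1 := fun h => hb1 (Subtype.ext h.symm)
  have hpz : p ∣ Nat.card (Subgroup.zpowers (b : Baer Q)) := by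
    have h1 : Nat.card (Subgroup.zpowers (b : Baer Q)) ∣ p ^ n :=
      hcardB ▸ Subgroup.card_subgroup_dvd_card _
    obtain ⟨j, -, hj⟩ := (Nat.dvd_prime_pow hpp.out).mp h1
    rcases j with _ | j
    · exfalso
      apply hbne
      rw [pow_zero, Nat.card_zpowers, orderOf_eq_one_iff] at hj
      exact hj
    · rw [hj]
      exact dvd_pow_self p (Nat.succ_ne_zero j)
  obtain ⟨x, hx⟩ := exists_prime_orderOf_dvd_card' (G := Subgroup.zpowers (b : Baer Q)) p hpz
  obtain ⟨i, hi⟩ := Subgroup.mem_zpowers_iff.mp x.2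
  have hxS : (x : Baer Q) ∈ S := by rw [← hi]; exact S.zpow_mem b.2 i
  have hxne : (x : Baer Q) ≠ 1 := by
    intro h
    have : x = 1 := Subtype.ext h
    rw [this, orderOf_one] at hx
    exact hpp.out.one_lt.ne hx
  have hxp : (x : Baer Q) ^ p = 1 := by
    have : x ^ p = 1 := by rw [← hx]; exact pow_orderOf_eq_one x
    exact congrArg Subtype.val this
  refine ⟨ofB (x : Baer Q), hxne, ?_, ?_, ?_⟩
  · rw [← ofB_pow, hxp, ofB_one]
  · intro a ha
    show ofB (bm a (x : Baer Q)) = ofB (x : Baer Q)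
    rw [← hi, map_zpow, hbfix a ha]
  · by_contra hcon
    push Not at hcon
    exact hxne (hSfix x hxS hcon)

end Cfsg.Agent.Lib.Helper29
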