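import Mathlib
import Cfsg.Prelude.Def_OddOrderLocal
import Cfsg.Agent.Lib.Helper1.CoprimeSylow
import Cfsg.Agent.Lib.Helper9.Cores
import Cfsg.Agent.Lib.Helper12.Conj

/-!
Thompson transitivity: the abstract core.
-/

set_option autoImplicit false

namespace Cfsg.Agent.Lib.Helper29

open Subgroup Cfsg
open Cfsg.Agent.Lib.Helper12 (cj mem_cj cj_mul cj_mono card_cj isPGroup_cj normalizer_cj cj_inf
  card_lt_card_of_lt lt_inf_normalizer cj_eq_of_mem_normalizer)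
open Cfsg.Agent.Lib.Helper1 (sylImg)
open scoped Pointwise

variable {G : Type*} [Group G]

theorem isPGroup_of_primes [Finite G] {q : ℕ} [Fact q.Prime] {Y : Subgroup G}
    (h : ∀ p : ℕ, p.Prime → p ∣ Nat.card Y → p ∈ ({q} : Set ℕ)) : IsPGroup q Y := by
  have h2 := Nat.eq_prime_pow_of_unique_prime_dvd (n := Nat.card Y) (p := q)
    Nat.card_pos.ne' (fun {r} hr hd => h r hr hd)
  exact IsPGroup.of_card h2

theorem primes_of_isPGroup [Finite G] {q : ℕ} [hq : Fact q.Prime] {Y : Subgroup G} (h : IsPGroup q Y) :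
    ∀ p : ℕ, p.Prime → p ∣ Nat.card Y → p ∈ ({q} : Set ℕ) := by
  intro p hp hd
  obtain ⟨n, hn⟩ := IsPGroup.iff_card.mp h
  rw [hn] at hd
  exact (Nat.prime_dvd_prime_iff_eq hp hq.out).mp (hp.dvd_of_dvd_pow hd)

theorem mem_inv_iff [Finite G] {q : ℕ} [Fact q.Prime] {A Y : Subgroup G} :
    Y ∈ invSubgroups ⊤ A {q} ↔ IsPGroup q Y ∧ A ≤ normalizer (Y : Set G) :=
  ⟨fun h => ⟨isPGroup_of_primes h.2.1, h.2.2⟩, fun h => ⟨le_top, primes_of_isPGroup h.1, h.2⟩⟩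

theorem exists_maxInv_ge [Finite G] {q : ℕ} [Fact q.Prime] {A T : Subgroup G} (hT : IsPGroup q T)
    (hAT : A ≤ normalizer (T : Set G)) : ∃ Q ∈ maxInvSubgroups ⊤ A {q}, T ≤ Q := by
  obtain ⟨Q, hTQ, hQ⟩ := (Set.toFinite (invSubgroups ⊤ A {q})).exists_le_maximal
    (mem_inv_iff.mpr ⟨hT, hAT⟩)
  exact ⟨Q, ⟨hQ.prop, fun R hR hQR => le_antisymm (hQ.le_of_ge hR hQR) hQR⟩, hTQ⟩

theorem le_normalizer_cj {A Y : Subgroup G} {k : G} (hk : k ∈ centralizer (A : Set G))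
    (h : A ≤ normalizer (Y : Set G)) : A ≤ normalizer (cj k Y : Set G) := by
  intro a ha
  rw [normalizer_cj, mem_cj]
  have h1 : k⁻¹ * a * k = a := by
    have := (mem_centralizer_iff.mp hk) a ha
    calc k⁻¹ * a * k = k⁻¹ * (a * k) := by group
      _ = k⁻¹ * (k * a) := by rw [this]
      _ = a := by group
  rw [h1]
  exact h ha

theorem cj_mem_maxInv [Finite G] {q : ℕ} [Fact q.Prime] {A Q : Subgroup G} {k : G}
    (hk : k ∈ centralizer (A : Set G)) (hQ : Q ∈ maxInvSubgroups ⊤ A {q}) :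
    cj k Q ∈ maxInvSubgroups ⊤ A {q} := by
  have h1 := mem_inv_iff.mp hQ.1
  refine ⟨mem_inv_iff.mpr ⟨isPGroup_cj h1.1 k, le_normalizer_cj hk h1.2⟩, ?_⟩
  intro R hR hle
  have h2 := mem_inv_iff.mp hR
  have h3 : cj k⁻¹ R ∈ invSubgroups ⊤ A {q} :=
    mem_inv_iff.mpr ⟨isPGroup_cj h2.1 _, le_normalizer_cj (inv_mem hk) h2.2⟩
  have h4 : Q ≤ cj k⁻¹ R := Cfsg.Agent.Lib.Helper12.cj_le_iff.mp hle
  have h5 := hQ.2 _ h3 h4
  rw [← h5, Cfsg.Agent.Lib.Helper12.cj_cj_inv]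

/-- two invariant `q`-subgroups of an invariant subgroup of coprime order can be brought into a common
invariant `q`-subgroup -/
theorem link [Finite G] (A : Subgroup G) (hsolv : Group.IsSolvable A) (q : ℕ) [Fact q.Prime]
    (L R₁ R₂ : Subgroup G) (hAL : A ≤ normalizer (L : Set G)) (hcop : (Nat.card A).Coprime (Nat.card L))
    (h1 : R₁ ≤ L) (h2 : R₂ ≤ L) (hq1 : IsPGroup q R₁) (hq2 : IsPGroup q R₂)
    (hA1 : A ≤ normalizer (R₁ : Set G)) (hA2 : A ≤ normalizer (R₂ : Set G)) :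
    ∃ k ∈ L ⊓ centralizer (A : Set G), ∃ T : Subgroup G, IsPGroup q T ∧ A ≤ normalizer (T : Set G) ∧
      cj k R₁ ≤ T ∧ R₂ ≤ T := by
  obtain ⟨P₁, hP₁, hAP₁⟩ := Cfsg.Agent.Lib.Helper1.coprime_invariant_psubgroup_le A L hAL hcop
    (Or.inl hsolv) q R₁ h1 hq1 hA1
  obtain ⟨P₂, hP₂, hAP₂⟩ := Cfsg.Agent.Lib.Helper1.coprime_invariant_psubgroup_le A L hAL hcop
    (Or.inl hsolv) q R₂ h2 hq2 hA2
  obtain ⟨c, hc, hcP⟩ := Cfsg.Agent.Lib.Helper1.coprime_invariant_sylow_conj A L hAL hcop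
    (Or.inl hsolv) q P₁ P₂ hAP₁ hAP₂
  refine ⟨c, Subgroup.mem_inf.mpr ⟨c.2, hc⟩, sylImg P₂, Cfsg.Agent.Lib.Helper1.sylImg_isPGroup P₂, hAP₂, ?_, hP₂⟩
  rw [← hcP, Cfsg.Agent.Lib.Helper1.sylImg_conj_smul]
  exact cj_mono hP₁

/-- **Abstract transitivity theorem.** -/
theorem trans_core [Finite G] (A K : Subgroup G) (hsolv : Group.IsSolvable A) (q : ℕ) [Fact q.Prime]
    (n : ℕ) (hK : K ≤ centralizer (A : Set G))
    (hlink : ∀ D R R' : Subgroup G, n ≤ Nat.card D → IsPGroup q R → IsPGroup q R' →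
      A ≤ normalizer (D : Set G) → A ≤ normalizer (R : Set G) → A ≤ normalizer (R' : Set G) →
      D < R → D < R' → R ≤ normalizer (D : Set G) → R' ≤ normalizer (D : Set G) →
      ∃ L R₀ R₀' : Subgroup G, A ≤ normalizer (L : Set G) ∧ (Nat.card A).Coprime (Nat.card L) ∧
        L ⊓ centralizer (A : Set G) ≤ K ∧ D < R₀ ∧ D < R₀' ∧ R₀ ≤ R ∧ R₀' ≤ R' ∧
        A ≤ normalizer (R₀ : Set G) ∧ A ≤ normalizer (R₀' : Set G) ∧ R₀ ≤ L ∧ R₀' ≤ L) :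
    ∀ Q ∈ maxInvSubgroups ⊤ A {q}, ∀ Q' ∈ maxInvSubgroups ⊤ A {q}, n ≤ Nat.card (Q ⊓ Q' : Subgroup G) →
      ∃ k ∈ K, Q' = cj k Q := by
  intro Q hQ Q' hQ' hn
  induction hm : Nat.card G - Nat.card (Q ⊓ Q' : Subgroup G) using Nat.strong_induction_on
    generalizing Q Q' with
  | _ m ih =>
    have hQi := mem_inv_iff.mp hQ.1
    have hQi' := mem_inv_iff.mp hQ'.1
    by_cases h1 : Q ⊓ Q' = Q
    · have h2 : Q ≤ Q' := inf_eq_left.mp h1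
      exact ⟨1, one_mem _, by rw [hQ.2 Q' hQ'.1 h2, Cfsg.Agent.Lib.Helper12.cj_one]⟩
    by_cases h1' : Q ⊓ Q' = Q'
    · have h2 : Q' ≤ Q := inf_eq_right.mp h1'
      exact ⟨1, one_mem _, by rw [hQ'.2 Q hQ.1 h2, Cfsg.Agent.Lib.Helper12.cj_one]⟩
    have hD1 : Q ⊓ Q' < Q := lt_of_le_of_ne inf_le_left h1
    have hD2 : Q ⊓ Q' < Q' := lt_of_le_of_ne inf_le_right h1'
    have hAD : A ≤ normalizer ((Q ⊓ Q' : Subgroup G) : Set G) :=
      Cfsg.Agent.Lib.Helper1.le_normalizer_inf hQi.2 hQi'.2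
    have hAN : A ≤ normalizer ((normalizer ((Q ⊓ Q' : Subgroup G) : Set G) : Subgroup G) : Set G) :=
      hAD.trans le_normalizer
    obtain ⟨L, R₀, R₀', hAL, hcop, hLK, hDR, hDR', hR, hR', hAR, hAR', hRL, hRL'⟩ :=
      hlink (Q ⊓ Q') (Q ⊓ normalizer ((Q ⊓ Q' : Subgroup G) : Set G))
        (Q' ⊓ normalizer ((Q ⊓ Q' : Subgroup G) : Set G)) hn (hQi.1.to_le inf_le_left)
        (hQi'.1.to_le inf_le_left) hAD (Cfsg.Agent.Lib.Helper1.le_normalizer_inf hQi.2 hAN)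
        (Cfsg.Agent.Lib.Helper1.le_normalizer_inf hQi'.2 hAN)
        (lt_inf_normalizer hQi.1 hD1) (lt_inf_normalizer hQi'.1 hD2) inf_le_right inf_le_right
    have hqR : IsPGroup q R₀ := hQi.1.to_le (hR.trans inf_le_left)
    have hqR' : IsPGroup q R₀' := hQi'.1.to_le (hR'.trans inf_le_left)
    obtain ⟨k, hk, T, hqT, hAT, hkT, hT'⟩ := link A hsolv q L R₀ R₀' hAL hcop hRL hRL' hqR hqR' hAR hAR'
    obtain ⟨Q₃, hQ₃, hTQ₃⟩ := exists_maxInv_ge hqT hAT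
    have hkK : k ∈ K := hLK hk
    have hcD := card_lt_card_of_lt hDR
    have hcD' := card_lt_card_of_lt hDR'
    have hle : ∀ X : Subgroup G, Nat.card X ≤ Nat.card G := fun X => Subgroup.card_le_card_group X
    -- `Q₃` and `Q'`
    have hc1 : Nat.card R₀' ≤ Nat.card (Q₃ ⊓ Q' : Subgroup G) :=
      Subgroup.card_le_of_le (le_inf (hT'.trans hTQ₃) (hR'.trans inf_le_left))
    obtain ⟨k₁, hk₁, hk₁'⟩ := ih (Nat.card G - Nat.card (Q₃ ⊓ Q' : Subgroup G))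
      (by have := hle (Q₃ ⊓ Q'); have := hle (Q ⊓ Q'); omega) Q₃ hQ₃ Q' hQ' (by omega) rfl
    -- `cj k Q` and `Q₃`
    have hc2 : Nat.card R₀ ≤ Nat.card (cj k Q ⊓ Q₃ : Subgroup G) := by
      rw [← card_cj k R₀]
      exact Subgroup.card_le_of_le (le_inf (cj_mono (hR.trans inf_le_left)) (hkT.trans hTQ₃))
    obtain ⟨k₂, hk₂, hk₂'⟩ := ih (Nat.card G - Nat.card (cj k Q ⊓ Q₃ : Subgroup G))
      (by have := hle (cj k Q ⊓ Q₃); have := hle (Q ⊓ Q'); omega) (cj k Q)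
      (cj_mem_maxInv (hK hkK) hQ) Q₃ hQ₃ (by omega) rfl
    refine ⟨k₁ * (k₂ * k), mul_mem hk₁ (mul_mem hk₂ hkK), ?_⟩
    rw [hk₁', hk₂', cj_mul, cj_mul]

end Cfsg.Agent.Lib.Helper29
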