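import Mathlib
import Cfsg.Prelude.Def_OddOrder
import Cfsg.Prelude.Def_OddOrderLocal
import Cfsg.Agent.Lib.Helper29.Trans
import Cfsg.Agent.Lib.Helper9.Generation

/-!
Transitivity under the transitivity hypothesis, in a minimal simple group of odd order.
-/

set_option autoImplicit false

namespace Cfsg.Agent.Lib.Helper29

open Subgroup Cfsg
open Cfsg.Agent.Lib.Helper12 (cj mem_cj cj_mul cj_mono card_cj isPGroup_cj normalizer_cj cj_inf
  card_lt_card_of_lt lt_inf_normalizer cj_eq_of_mem_normalizer)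

variable {G : Type*} [Group G]

theorem piCoreOf_le (π : Set ℕ) (X : Subgroup G) : piCoreOf π X ≤ X :=
  Cfsg.Agent.Lib.Helper9.map_subtype_le' X _

theorem piCoreOf_pi [Finite G] (π : Set ℕ) (X : Subgroup G) :
    ∀ q : ℕ, q.Prime → q ∣ Nat.card (piCoreOf π X) → q ∈ π := by
  intro q hq hd
  rw [piCoreOf, Subgroup.card_map_of_injective X.subtype_injective] at hd
  exact Cfsg.Agent.Lib.Helper9.piCore_pi π X q hq hd

theorem le_normalizer_piCoreOf (π : Set ℕ) (X : Subgroup G) :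
    X ≤ normalizer (piCoreOf π X : Set G) :=
  Cfsg.Agent.Lib.Helper9.le_normalizer_map_subtype X _

theorem le_piCoreOf {π : Set ℕ} {X N : Subgroup G} (hNX : N ≤ X) (hXN : X ≤ normalizer (N : Set G))
    (hπ : ∀ p : ℕ, p.Prime → p ∣ Nat.card N → p ∈ π) : N ≤ piCoreOf π X := by
  have h1 : (N.subgroupOf X).Normal := Subgroup.normal_subgroupOf_of_le_normalizer hXN
  have h2 : N.subgroupOf X ≤ piCore π X := by
    apply le_sSup
    refine ⟨h1, ?_⟩
    intro p hp hd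
    rw [Nat.card_congr (Subgroup.subgroupOfEquivOfLe hNX).toEquiv] at hd
    exact hπ p hp hd
  intro x hx
  exact ⟨⟨x, hNX hx⟩, h2 (mem_subgroupOf.mpr hx), rfl⟩

theorem normalizer_le_normalizer_piCoreOf [Finite G] (π : Set ℕ) (X : Subgroup G) :
    normalizer (X : Set G) ≤ normalizer (piCoreOf π X : Set G) := by
  intro g hg
  rw [Cfsg.Agent.Lib.Helper12.mem_normalizer_iff_cj]
  have hX : cj g X = X := cj_eq_of_mem_normalizer hg
  apply Subgroup.eq_of_le_of_card_ge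
  · apply le_piCoreOf
    · exact (cj_mono (piCoreOf_le π X)).trans hX.le
    · rw [normalizer_cj]
      exact hX.ge.trans (cj_mono (le_normalizer_piCoreOf π X))
    · intro p hp hd
      rw [card_cj] at hd
      exact piCoreOf_pi π X p hp hd
  · rw [card_cj]

theorem coprime_of_primesNotDvd [Finite G] {n : ℕ} {Y : Subgroup G}
    (h : ∀ p : ℕ, p.Prime → p ∣ Nat.card Y → p ∈ primesNotDvd n) : n.Coprime (Nat.card Y) := by
  apply Nat.coprime_of_dvd
  intro k hk h1 h2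
  exact (h k hk h2).2 h1

theorem primesNotDvd_of_coprime {n : ℕ} {Y : Subgroup G} (h : n.Coprime (Nat.card Y)) :
    ∀ p : ℕ, p.Prime → p ∣ Nat.card Y → p ∈ primesNotDvd n := by
  intro p hp hd
  refine ⟨hp, fun h1 => ?_⟩
  exact Nat.Prime.not_coprime_iff_dvd.mpr ⟨p, hp, h1, hd⟩ h

theorem normalizer_ne_top_of_simple [IsSimpleGroup G] {D : Subgroup G} (h1 : D ≠ ⊥) (h2 : D ≠ ⊤) :
    normalizer (D : Set G) ≠ ⊤ := by
  intro h
  have : D.Normal := normalizer_eq_top_iff.mp h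
  rcases this.eq_bot_or_eq_top with h3 | h3
  · exact h1 h3
  · exact h2 h3

section BG

variable [Finite G] {A : Subgroup G}

theorem TH.inv_le (hA : TransitivityHypothesis A) {X Y : Subgroup G} (hX : X ≠ ⊤) (hAX : A ≤ X)
    (hYX : Y ≤ X) (hcop : (Nat.card A).Coprime (Nat.card Y)) (hAY : A ≤ normalizer (Y : Set G)) :
    Y ≤ piCoreOf (primesNotDvd (Nat.card A)) X := by
  rw [← hA.2.2 X hX hAX]
  exact le_sSup ⟨hYX, primesNotDvd_of_coprime hcop, hAY⟩

theorem core_coprime (A X : Subgroup G) :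
    (Nat.card A).Coprime (Nat.card (piCoreOf (primesNotDvd (Nat.card A)) X)) :=
  coprime_of_primesNotDvd (piCoreOf_pi _ X)

/-- `O_{π'}(N_G(A)) ≤ O_{π'}(C_G(A))` -/
theorem core_normalizer_le (A : Subgroup G) :
    piCoreOf (primesNotDvd (Nat.card A)) (normalizer (A : Set G)) ≤
      piCoreOf (primesNotDvd (Nat.card A)) (centralizer (A : Set G)) := by
  set O := piCoreOf (primesNotDvd (Nat.card A)) (normalizer (A : Set G)) with hO
  have hON : O ≤ normalizer (A : Set G) := piCoreOf_le _ _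
  have hNO : normalizer (A : Set G) ≤ normalizer (O : Set G) := le_normalizer_piCoreOf _ _
  have hdisj : A ⊓ O = ⊥ :=
    (Cfsg.Agent.Lib.Helper1.disjoint_of_coprime_card (core_coprime A _)).eq_bot
  have hOC : O ≤ centralizer (A : Set G) := by
    intro x hx
    rw [mem_centralizer_iff]
    intro a ha
    have h1 : a * x * a⁻¹ * x⁻¹ ∈ A ⊓ O := by
      refine Subgroup.mem_inf.mpr ⟨?_, ?_⟩
      · have : x * a⁻¹ * x⁻¹ ∈ A := (mem_normalizer_iff.mp (hON hx) a⁻¹).mp (inv_mem ha)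
        have h2 : a * x * a⁻¹ * x⁻¹ = a * (x * a⁻¹ * x⁻¹) := by group
        rw [h2]
        exact mul_mem ha this
      · have : a * x * a⁻¹ ∈ O := (mem_normalizer_iff.mp (hNO (le_normalizer ha)) x).mp hx
        exact mul_mem this (inv_mem hx)
    rw [hdisj, mem_bot] at h1
    calc a * x = (a * x * a⁻¹ * x⁻¹) * (x * a) := by group
      _ = x * a := by rw [h1, one_mul]
  exact le_piCoreOf hOC ((centralizer_le_normalizer _).trans hNO) (piCoreOf_pi _ _)

theorem TH.cent_le [IsSimpleGroup G] (hA : TransitivityHypothesis A) {L : Subgroup G}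
    (hcop : (Nat.card A).Coprime (Nat.card L)) :
    L ⊓ centralizer (A : Set G) ≤ piCoreOf (primesNotDvd (Nat.card A)) (centralizer (A : Set G)) := by
  refine le_trans ?_ (core_normalizer_le A)
  apply TH.inv_le hA (normalizer_ne_top_of_simple hA.1 hA.2.1) le_normalizer
    (inf_le_right.trans (centralizer_le_normalizer _))
    (Nat.Coprime.of_dvd_right (Subgroup.card_dvd_of_le inf_le_left) hcop)
  intro a ha
  rw [mem_normalizer_iff]
  intro x
  constructor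
  · intro hx
    have h1 : a * x = x * a := (mem_centralizer_iff.mp (Subgroup.mem_inf.mp hx).2) a ha
    have h2 : a * x * a⁻¹ = x := by rw [h1]; group
    rw [h2]; exact hx
  · intro hx
    have h1 : a * (a * x * a⁻¹) = (a * x * a⁻¹) * a := (mem_centralizer_iff.mp (Subgroup.mem_inf.mp hx).2) a ha
    have h2 : a * x * a⁻¹ = x := by
      have : a * x = x * a := by
        calc a * x = a⁻¹ * (a * (a * x * a⁻¹)) * a := by group
          _ = a⁻¹ * ((a * x * a⁻¹) * a) * a := by rw [h1]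
          _ = x * a := by group
      rw [this]; group
    rw [h2] at hx; exact hx

theorem coprime_of_isPGroup {q : ℕ} [hq : Fact q.Prime] (hqA : ¬ q ∣ Nat.card A) {Y : Subgroup G}
    (hY : IsPGroup q Y) : (Nat.card A).Coprime (Nat.card Y) := by
  obtain ⟨n, hn⟩ := IsPGroup.iff_card.mp hY
  rw [hn]
  exact Nat.Coprime.pow_right n ((Nat.Prime.coprime_iff_not_dvd hq.out).mpr hqA).symm

/-- maximal invariant `q`-subgroups with nontrivial intersection are conjugate -/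
theorem TH.conj_of_inf_ne_bot (hG : IsMinSimpleOddOrder G) (hA : TransitivityHypothesis A) (q : ℕ)
    [Fact q.Prime] (hqA : ¬ q ∣ Nat.card A) :
    ∀ Q ∈ maxInvSubgroups ⊤ A {q}, ∀ Q' ∈ maxInvSubgroups ⊤ A {q}, Q ⊓ Q' ≠ ⊥ →
      ∃ k ∈ piCoreOf (primesNotDvd (Nat.card A)) (centralizer (A : Set G)), Q' = cj k Q := by
  haveI : IsSimpleGroup G := hG.2.1
  intro Q hQ Q' hQ' hne
  refine trans_core A _ (hG.2.2.2 A hA.2.1) q 2 (piCoreOf_le _ _) ?_ Q hQ Q' hQ' ?_
  · intro D R R' hD hqR hqR' hAD hAR hAR' hDR hDR' hRD hRD'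
    have hD1 : D ≠ ⊥ := by
      intro h
      rw [h, Subgroup.card_bot] at hD
      omega
    have hD2 : D ≠ ⊤ := fun h => absurd (h ▸ hDR) (not_lt_of_ge le_top)
    have hN := normalizer_ne_top_of_simple hD1 hD2
    refine ⟨piCoreOf (primesNotDvd (Nat.card A)) (normalizer (D : Set G)), R, R',
      hAD.trans (le_normalizer_piCoreOf _ _), core_coprime A _, TH.cent_le hA (core_coprime A _), hDR, hDR',
      le_rfl, le_rfl, hAR, hAR', ?_, ?_⟩
    · exact TH.inv_le hA hN hAD hRD (coprime_of_isPGroup hqA hqR) hAR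
    · exact TH.inv_le hA hN hAD hRD' (coprime_of_isPGroup hqA hqR') hAR'
  · by_contra h
    apply hne
    have h1 : Nat.card (Q ⊓ Q' : Subgroup G) = 1 := by
      have := Nat.card_pos (α := (Q ⊓ Q' : Subgroup G))
      omega
    exact (Subgroup.card_eq_one).mp h1

/-- maximal invariant `q`-subgroups both meeting a proper overgroup of `A` are conjugate -/
theorem TH.conj_of_common (hG : IsMinSimpleOddOrder G) (hA : TransitivityHypothesis A) (q : ℕ)
    [Fact q.Prime] (hqA : ¬ q ∣ Nat.card A)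
    (Q₁ Q₂ : Subgroup G) (h₁ : Q₁ ∈ maxInvSubgroups ⊤ A {q}) (h₂ : Q₂ ∈ maxInvSubgroups ⊤ A {q})
    (H : Subgroup G) (hH : H ≠ ⊤) (hAH : A ≤ H) (hH₁ : H ⊓ Q₁ ≠ ⊥) (hH₂ : H ⊓ Q₂ ≠ ⊥) :
    ∃ k ∈ piCoreOf (primesNotDvd (Nat.card A)) (centralizer (A : Set G)), Q₂ = cj k Q₁ := by
  haveI : IsSimpleGroup G := hG.2.1
  have hi₁ := mem_inv_iff.mp h₁.1
  have hi₂ := mem_inv_iff.mp h₂.1
  have hAHn : A ≤ normalizer (H : Set G) := hAH.trans le_normalizer
  have hq1 : IsPGroup q (H ⊓ Q₁ : Subgroup G) := hi₁.1.to_le inf_le_right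
  have hq2 : IsPGroup q (H ⊓ Q₂ : Subgroup G) := hi₂.1.to_le inf_le_right
  have hA1 := Cfsg.Agent.Lib.Helper1.le_normalizer_inf hAHn hi₁.2
  have hA2 := Cfsg.Agent.Lib.Helper1.le_normalizer_inf hAHn hi₂.2
  obtain ⟨k, hk, T, hqT, hAT, hkT, hT'⟩ := link A (hG.2.2.2 A hA.2.1) q
    (piCoreOf (primesNotDvd (Nat.card A)) H) (H ⊓ Q₁) (H ⊓ Q₂) (hAH.trans (le_normalizer_piCoreOf _ _))
    (core_coprime A _) (TH.inv_le hA hH hAH inf_le_left (coprime_of_isPGroup hqA hq1) hA1)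
    (TH.inv_le hA hH hAH inf_le_left (coprime_of_isPGroup hqA hq2) hA2) hq1 hq2 hA1 hA2
  have hkK := TH.cent_le hA (core_coprime A H) hk
  obtain ⟨Q₃, hQ₃, hTQ₃⟩ := exists_maxInv_ge hqT hAT
  obtain ⟨k₁, hk₁, hk₁'⟩ := TH.conj_of_inf_ne_bot hG hA q hqA Q₃ hQ₃ Q₂ h₂ (by
    intro h
    apply hH₂
    rw [eq_bot_iff, ← h]
    exact le_inf (hT'.trans hTQ₃) inf_le_right)
  obtain ⟨k₂, hk₂, hk₂'⟩ := TH.conj_of_inf_ne_bot hG hA q hqA (cj k Q₁)
    (cj_mem_maxInv (piCoreOf_le _ _ hkK) h₁) Q₃ hQ₃ (by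
    intro h
    apply hH₁
    have h3 : cj k (H ⊓ Q₁) ≤ ⊥ := by
      rw [← h]
      exact le_inf (cj_mono inf_le_right) (hkT.trans hTQ₃)
    exact Cfsg.Agent.Lib.Helper12.cj_eq_bot_iff.mp (le_bot_iff.mp h3))
  refine ⟨k₁ * (k₂ * k), mul_mem hk₁ (mul_mem hk₂ hkK), ?_⟩
  rw [hk₁', hk₂', cj_mul, cj_mul]

end BG

end Cfsg.Agent.Lib.Helper29

namespace Cfsg.Agent.Lib.Helper29

open Subgroup Cfsg

variable {G : Type*} [Group G] [Finite G]

theorem exists_hyperplane_fix (r : ℕ) [Fact r.Prime] (E Q : Subgroup G) (hE : IsElementaryAbelian r E)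
    (hE2 : r ≤ Nat.card E) (hQ : ¬ r ∣ Nat.card Q) (hEQ : E ≤ normalizer (Q : Set G)) (hQ1 : Q ≠ ⊥) :
    ∃ B : Subgroup G, B ≤ E ∧ B.relIndex E = r ∧ Q ⊓ centralizer (B : Set G) ≠ ⊥ := by
  by_contra hcon
  push Not at hcon
  apply hQ1
  rw [Cfsg.Agent.Lib.Helper9.gen_hyperplanes r E Q hE hE2 hQ hEQ, eq_bot_iff]
  apply iSup_le
  intro B
  rw [hcon B.1 B.2.1 B.2.2]

theorem card_mul_relIndex_of_le {B E : Subgroup G} (h : B ≤ E) :
    Nat.card B * B.relIndex E = Nat.card E := by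
  have := Subgroup.relIndex_mul_relIndex ⊥ B E bot_le h
  rwa [Subgroup.relIndex_bot_left, Subgroup.relIndex_bot_left] at this

theorem exists_ne_one_of_ne_bot {B : Subgroup G} (h : B ≠ ⊥) : ∃ b ∈ B, b ≠ 1 := by
  by_contra hcon
  push Not at hcon
  exact h ((Subgroup.eq_bot_iff_forall B).mpr hcon)

theorem centralizer_le_centralizer_singleton {B : Subgroup G} {b : G} (hb : b ∈ B) :
    centralizer (B : Set G) ≤ centralizer ({b} : Set G) :=
  centralizer_le (by simpa using hb)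

/-- rank at least two: a nontrivial element with fixed points -/
theorem exists_fix_of_rank_two (r : ℕ) [hr : Fact r.Prime] (E Q : Subgroup G) (hE : IsElementaryAbelian r E)
    (hE2 : r < Nat.card E) (hQ : ¬ r ∣ Nat.card Q) (hEQ : E ≤ normalizer (Q : Set G)) (hQ1 : Q ≠ ⊥) :
    ∃ b ∈ E, b ≠ 1 ∧ Q ⊓ centralizer ({b} : Set G) ≠ ⊥ := by
  obtain ⟨B, hBE, hidx, hne⟩ := exists_hyperplane_fix r E Q hE hE2.le hQ hEQ hQ1
  have h1 : Nat.card B * B.relIndex E = Nat.card E := card_mul_relIndex_of_le hBE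
  have h2 : B ≠ ⊥ := by
    intro h
    rw [hidx, h, Subgroup.card_bot] at h1
    omega
  obtain ⟨b, hb, hb1⟩ := exists_ne_one_of_ne_bot h2
  refine ⟨b, hBE hb, hb1, fun h => hne ?_⟩
  rw [eq_bot_iff, ← h]
  exact inf_le_inf_left _ (centralizer_le_centralizer_singleton hb)

/-- rank at least three: a common nontrivial element with fixed points -/
theorem exists_fix_of_rank_three (r : ℕ) [hr : Fact r.Prime] (E Q₁ Q₂ : Subgroup G)
    (hE : IsElementaryAbelian r E) (hE2 : r ^ 2 < Nat.card E)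
    (hQ₁ : ¬ r ∣ Nat.card Q₁) (hEQ₁ : E ≤ normalizer (Q₁ : Set G)) (hQ₁1 : Q₁ ≠ ⊥)
    (hQ₂ : ¬ r ∣ Nat.card Q₂) (hEQ₂ : E ≤ normalizer (Q₂ : Set G)) (hQ₂1 : Q₂ ≠ ⊥) :
    ∃ b ∈ E, b ≠ 1 ∧ Q₁ ⊓ centralizer ({b} : Set G) ≠ ⊥ ∧ Q₂ ⊓ centralizer ({b} : Set G) ≠ ⊥ := by
  have hr1 : r ≤ Nat.card E := by
    have : r ≤ r ^ 2 := by nlinarith [hr.out.one_lt]
    omega
  obtain ⟨B₁, hBE₁, hidx₁, hne₁⟩ := exists_hyperplane_fix r E Q₁ hE hr1 hQ₁ hEQ₁ hQ₁1
  obtain ⟨B₂, hBE₂, hidx₂, hne₂⟩ := exists_hyperplane_fix r E Q₂ hE hr1 hQ₂ hEQ₂ hQ₂1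
  have h1 : Nat.card (B₁ ⊓ B₂ : Subgroup G) * (B₁ ⊓ B₂).relIndex E = Nat.card E :=
    card_mul_relIndex_of_le (inf_le_left.trans hBE₁)
  have h3 : (B₁ ⊓ B₂).relIndex E ≤ r * r := by
    have := Subgroup.relIndex_inf_le (H := B₁) (K := B₂) (L := E)
    rwa [hidx₁, hidx₂] at this
  have h2 : B₁ ⊓ B₂ ≠ ⊥ := by
    intro h
    have h4 : Nat.card (B₁ ⊓ B₂ : Subgroup G) = 1 := by rw [h, Subgroup.card_bot]
    rw [h4] at h1
    nlinarith
  obtain ⟨b, hb, hb1⟩ := exists_ne_one_of_ne_bot h2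
  refine ⟨b, hBE₁ (Subgroup.mem_inf.mp hb).1, hb1, fun h => hne₁ ?_, fun h => hne₂ ?_⟩
  · rw [eq_bot_iff, ← h]
    exact inf_le_inf_left _ (centralizer_le_centralizer_singleton (Subgroup.mem_inf.mp hb).1)
  · rw [eq_bot_iff, ← h]
    exact inf_le_inf_left _ (centralizer_le_centralizer_singleton (Subgroup.mem_inf.mp hb).2)

theorem centralizer_singleton_ne_top (hG : IsMinSimpleOddOrder G) {b : G} (hb : b ≠ 1) :
    centralizer ({b} : Set G) ≠ ⊤ := by
  haveI : IsSimpleGroup G := hG.2.1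
  intro h
  have h1 : b ∈ center G := by
    rw [Subgroup.mem_center_iff]
    intro g
    have : g ∈ centralizer ({b} : Set G) := h ▸ mem_top g
    exact ((mem_centralizer_singleton_iff).mp this)
  rcases (inferInstance : (center G).Normal).eq_bot_or_eq_top with h2 | h2
  · rw [h2, mem_bot] at h1
    exact hb h1
  · apply hG.2.2.1
    refine ⟨⟨fun x y => ?_⟩⟩
    have : y ∈ center G := h2 ▸ mem_top y
    exact ((Subgroup.mem_center_iff.mp this) x)

/-- extract an elementary abelian subgroup from a rank hypothesis on the centre of `A` -/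
theorem exists_elemAb_of_not_rankLE {A : Subgroup G} {k : ℕ}
    (hZ : ¬ RankLE k ↥(A ⊓ centralizer (A : Set G))) :
    ∃ r : ℕ, r.Prime ∧ ∃ E : Subgroup G, E ≤ A ⊓ centralizer (A : Set G) ∧ IsElementaryAbelian r E ∧
      r ^ k < Nat.card E := by
  unfold RankLE PRankLE at hZ
  push Not at hZ
  obtain ⟨r, hr, E₀, hc, he, hcard⟩ := hZ
  refine ⟨r, hr, E₀.map (A ⊓ centralizer (A : Set G)).subtype, Cfsg.Agent.Lib.Helper9.map_subtype_le' _ _,
    Cfsg.Agent.Lib.Helper4.elemAb_map _ ⟨hc, he⟩, ?_⟩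
  rw [Subgroup.card_map_of_injective (Subgroup.subtype_injective _)]
  exact hcard

end Cfsg.Agent.Lib.Helper29
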