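import Mathlib
import Cfsg.Agent.Lib.Helper29.Baer
import Cfsg.Agent.Lib.Helper1.Coprime
import Cfsg.Agent.Lib.Helper1.CoprimeSylow

/-!
Core lemma: a `p'`-group `K` normalized by a `p`-group `A`, both acting on a `p`-group `P` (`p` odd), centralizes
`P` as soon as it centralizes the elements of order `p` of `C_P(A)`.
-/

set_option autoImplicit false

namespace Cfsg.Agent.Lib.Helper29

open Subgroup
open scoped commutatorElement

variable {G : Type*} [Group G] [Finite G]

theorem le_normalizer_commutator {A X Y : Subgroup G} (hX : A ≤ normalizer (X : Set G))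
    (hY : A ≤ normalizer (Y : Set G)) : A ≤ normalizer ((⁅X, Y⁆ : Subgroup G) : Set G) := by
  intro a ha
  apply Cfsg.Agent.Lib.Helper1.mem_normalizer_of_conj_mem
  intro u hu
  have h1 : ⁅X, Y⁆.map (MulAut.conj a).toMonoidHom = ⁅X, Y⁆ := by
    rw [Subgroup.map_commutator]
    congr 1
    · exact (mem_normalizer_iff_map_conj_eq.mp (hX ha))
    · exact (mem_normalizer_iff_map_conj_eq.mp (hY ha))
  rw [← h1]
  exact ⟨u, hu, rfl⟩

theorem core_lemma (p : ℕ) [hpp : Fact p.Prime] (hp : p ≠ 2) (P K A : Subgroup G)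
    (hP : IsPGroup p P) (hK : (Nat.card K).Coprime p) (hA : IsPGroup p A)
    (hKP : K ≤ normalizer (P : Set G)) (hAP : A ≤ normalizer (P : Set G))
    (hAK : A ≤ normalizer (K : Set G))
    (hfix : ∀ x ∈ P, x ^ p = 1 → x ∈ centralizer (A : Set G) → x ∈ centralizer (K : Set G)) :
    K ≤ centralizer (P : Set G) := by
  by_contra hcon
  let 𝒬 : Set (Subgroup G) := {Q | Q ≤ P ∧ K ≤ normalizer (Q : Set G) ∧ A ≤ normalizer (Q : Set G) ∧
    ¬ K ≤ centralizer (Q : Set G)}
  obtain ⟨Q, hQ⟩ := (Set.toFinite 𝒬).exists_minimal ⟨P, le_rfl, hKP, hAP, hcon⟩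
  obtain ⟨hQP, hKQ, hAQ, hnc⟩ := hQ.prop
  have hQp : IsPGroup p Q := hP.to_le hQP
  have hcop : (Nat.card K).Coprime (Nat.card Q) := by
    obtain ⟨n, hn⟩ := IsPGroup.iff_card.mp hQp
    rw [hn]
    exact Nat.Coprime.pow_right n hK
  have hQsolv : Group.IsSolvable Q := by
    haveI := hQp.isNilpotent
    infer_instance
  -- `Q = [Q, K]`
  have h1 : ⁅Q, K⁆ = Q := by
    have hle : ⁅Q, K⁆ ≤ Q := Cfsg.Agent.Lib.Helper1.commutator_le_of_le_normalizer hKQ
    apply le_antisymm hle
    apply hQ.le_of_le ?_ hle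
    refine ⟨hle.trans hQP, le_normalizer_commutator hKQ le_normalizer, le_normalizer_commutator hAQ hAK, ?_⟩
    intro hc
    apply hnc
    have h2 : ⁅⁅Q, K⁆, K⁆ = ⊥ := by
      rw [commutator_eq_bot_iff_le_centralizer]
      exact le_centralizer_iff.mp hc
    rw [Cfsg.Agent.Lib.Helper1.coprime_commutator_stable K Q hKQ hcop (Or.inr hQsolv)] at h2
    rw [commutator_eq_bot_iff_le_centralizer] at h2
    exact le_centralizer_iff.mp h2
  -- `K` centralizes `Q'`
  have hQ1 : Q ≠ ⊥ := by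
    intro h
    apply hnc
    rw [h]
    intro k _
    rw [mem_centralizer_iff]
    intro x hx
    have : x = 1 := hx
    rw [this]; simp
  have hder : ⁅Q, Q⁆ < Q := by
    have hle : ⁅Q, Q⁆ ≤ Q := Cfsg.Agent.Lib.Helper1.commutator_le_of_le_normalizer le_normalizer
    refine lt_of_le_of_ne hle ?_
    intro h
    -- a perfect solvable group is trivial
    have h3 : ⁅(⊤ : Subgroup Q), (⊤ : Subgroup Q)⁆ = (⊤ : Subgroup Q) := by
      apply Subgroup.map_injective Q.subtype_injective
      rw [Subgroup.map_commutator, ← MonoidHom.range_eq_map, Subgroup.range_subtype, h]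
    have h4 : ∀ n, derivedSeries Q n = ⊤ := by
      intro n
      induction n with
      | zero => rfl
      | succ n ih => rw [derivedSeries_succ, ih, h3]
    obtain ⟨n, hn⟩ := hQsolv.solvable
    rw [h4 n] at hn
    apply hQ1
    rw [eq_bot_iff]
    intro x hx
    have : (⟨x, hx⟩ : Q) ∈ (⊤ : Subgroup Q) := mem_top _
    rw [hn, mem_bot] at this
    exact congrArg Subtype.val this
  have hKder : K ≤ centralizer ((⁅Q, Q⁆ : Subgroup G) : Set G) := by
    by_contra hc
    have h2 : ⁅Q, Q⁆ ∈ 𝒬 := ⟨hder.le.trans hQP, le_normalizer_commutator hKQ hKQ,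
      le_normalizer_commutator hAQ hAQ, hc⟩
    exact absurd (hQ.le_of_le h2 hder.le) (not_le_of_gt hder)
  -- class at most two
  have hcl : ⁅Q, ⁅Q, Q⁆⁆ = ⊥ := by
    have h2 : ⁅⁅Q, K⁆, ⁅Q, Q⁆⁆ = ⊥ := by
      apply commutator_commutator_eq_bot_of_rotate
      · have : ⁅K, ⁅Q, Q⁆⁆ = ⊥ := commutator_eq_bot_iff_le_centralizer.mpr hKder
        rw [this]
        exact commutator_bot_left _
      · rw [commutator_eq_bot_iff_le_centralizer]
        refine le_trans ?_ (le_centralizer_iff.mp hKder)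
        exact Cfsg.Agent.Lib.Helper1.commutator_le_of_le_normalizer
          (le_normalizer_commutator le_normalizer le_normalizer)
    rwa [h1] at h2
  have hCl2 : Baer.Cl2 Q := by
    intro x y z
    apply Subtype.ext
    have h2 : (z : G) ∈ centralizer ((⁅Q, Q⁆ : Subgroup G) : Set G) :=
      (commutator_eq_bot_iff_le_centralizer.mp hcl) z.2
    have h3 : ⁅(x : G), (y : G)⁆ ∈ ⁅Q, Q⁆ := commutator_mem_commutator x.2 y.2
    have := (mem_centralizer_iff.mp h2) _ h3
    simpa [commutatorElement_def] using this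
  -- the images in `Aut Q`
  let f : normalizer (Q : Set G) →* MulAut Q := Q.normalizerMonoidHom
  have hf : ∀ (g : normalizer (Q : Set G)) (x : Q), ((f g x : Q) : G) = g * x * (g : G)⁻¹ := fun g x => rfl
  let K' : Subgroup (MulAut Q) := (K.subgroupOf (normalizer (Q : Set G))).map f
  let A' : Subgroup (MulAut Q) := (A.subgroupOf (normalizer (Q : Set G))).map f
  have hK' : (Nat.card K').Coprime p := by
    have h2 : Nat.card K' ∣ Nat.card (K.subgroupOf (normalizer (Q : Set G))) :=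
      Subgroup.card_map_dvd _ _
    rw [Nat.card_congr (Subgroup.subgroupOfEquivOfLe hKQ).toEquiv] at h2
    exact Nat.Coprime.of_dvd_left h2 hK
  have hA' : IsPGroup p A' := (hA.comap_subtype).map f
  have hAK' : A' ≤ normalizer (K' : Set (MulAut Q)) := by
    rintro _ ⟨a, ha, rfl⟩
    apply Cfsg.Agent.Lib.Helper1.mem_normalizer_of_conj_mem
    rintro _ ⟨k, hk, rfl⟩
    refine ⟨a * k * a⁻¹, ?_, by simp⟩
    have ha' : (a : G) ∈ A := ha
    have hk' : (k : G) ∈ K := hk
    exact (mem_normalizer_iff.mp (hAK ha') _).mp hk'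
  have hK1 : K' ≠ ⊥ := by
    intro hbot
    apply hnc
    intro k hk
    rw [mem_centralizer_iff]
    intro x hx
    have h2 : f ⟨k, hKQ hk⟩ ∈ K' := ⟨⟨k, hKQ hk⟩, mem_subgroupOf.mpr hk, rfl⟩
    rw [hbot, mem_bot] at h2
    have h3 := hf ⟨k, hKQ hk⟩ ⟨x, hx⟩
    rw [h2] at h3
    have h4 : x = k * x * k⁻¹ := h3
    calc x * k = (k * x * k⁻¹) * k := by rw [← h4]
      _ = k * x := by group
  obtain ⟨x, hx1, hxp, hxA, k', hk', hkx⟩ := baer_fixed p hp hQp hCl2 K' A' hK' hA' hAK' hK1
  obtain ⟨k, hk, rfl⟩ := hk'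
  apply hkx
  apply Subtype.ext
  rw [hf]
  have h2 : (x : G) ∈ centralizer (K : Set G) := by
    apply hfix x (hQP x.2) (by exact_mod_cast congrArg Subtype.val hxp)
    rw [mem_centralizer_iff]
    intro a ha
    have h3 := hxA (f ⟨a, hAQ ha⟩) ⟨⟨a, hAQ ha⟩, mem_subgroupOf.mpr ha, rfl⟩
    have h4 : a * x * a⁻¹ = x := by
      have := congrArg Subtype.val h3
      rwa [hf] at this
    calc a * x = (a * x * a⁻¹) * a := by group
      _ = x * a := by rw [h4]
  have h3 := (mem_centralizer_iff.mp h2) k (mem_subgroupOf.mp hk)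
  rw [h3]; group

end Cfsg.Agent.Lib.Helper29
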