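import Mathlib
import Cfsg.Agent.Lib.Helper29.TransCore
import Cfsg.Agent.Lib.Helper9.ZJQuot
import Cfsg.Agent.Lib.Helper9.Cores
import Cfsg.Agent.Lib.Helper12.Conj

/-!
Invariant `p'`-subgroups of `p`-constrained groups.
-/

set_option autoImplicit false

namespace Cfsg.Agent.Lib.Helper29

open Subgroup Cfsg
open Cfsg.Agent.Lib.Helper16 (SylIn sylIn_top)
open Cfsg.Agent.Lib.Helper12 (cj mem_cj cj_mono card_cj)

variable {X : Type*} [Group X] [Finite X]

/-- reduction: it suffices to show that invariant `p'`-subgroups normalizing `S ∩ O_{p',p}(X)` centralize it -/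
theorem inv_le_pPrimeCore (p : ℕ) [hpp : Fact p.Prime] (hX : IsPConstrained p X) (A Q : Subgroup X)
    (S : Sylow p X) (hAS : A ≤ S) (hQ : (Nat.card Q).Coprime p) (hAQ : A ≤ normalizer (Q : Set X))
    (key : ∀ K : Subgroup X, (Nat.card K).Coprime p → A ≤ normalizer (K : Set X) →
      K ≤ normalizer (((S : Subgroup X) ⊓ pPrimePCore p X : Subgroup X) : Set X) →
      K ≤ centralizer (((S : Subgroup X) ⊓ pPrimePCore p X : Subgroup X) : Set X)) :
    Q ≤ pPrimeCore p X := by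
  have hNn : (pPrimeCore p X).Normal := (Cfsg.Agent.Lib.Helper1.pPrimeCore_spec p).1
  have hNp : (Nat.card (pPrimeCore p X)).Coprime p := Cfsg.Agent.Lib.Helper9.pPrimeCore_coprime'
  have hQn : (pCore p (X ⧸ pPrimeCore p X)).Normal := Cfsg.Agent.Lib.Helper1.pCore_normal p
  have hQp : IsPGroup p (pCore p (X ⧸ pPrimeCore p X)) := Cfsg.Agent.Lib.Helper1.pCore_isPGroup p
  have hQS : pCore p (X ⧸ pPrimeCore p X) ≤ (S : Subgroup X).map (QuotientGroup.mk' (pPrimeCore p X)) :=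
    hQp.le_sylow_of_normal (S.mapSurjective (QuotientGroup.mk'_surjective _))
  have hMn : (pPrimePCore p X).Normal := hQn.comap _
  obtain ⟨P₀, hP₀⟩ : ∃ P₀, P₀ = (S : Subgroup X) ⊓ pPrimePCore p X := ⟨_, rfl⟩
  rw [← hP₀] at key
  have hsyl : SylIn p P₀ (pPrimePCore p X) := by
    rw [hP₀]
    exact (sylIn_top S).inf_normal le_top (by rw [normalizer_eq_top])
  obtain ⟨P, hP⟩ := hsyl.exists_sylow_map
  have hC := hX P
  rw [hP] at hC
  have hM : pPrimeCore p X ⊔ P₀ = pPrimePCore p X := by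
    rw [hP₀]
    exact Cfsg.Agent.Lib.Helper9.sup_inf_comap_eq S _ hQS
  have hNM : pPrimeCore p X ≤ pPrimePCore p X := hM ▸ le_sup_left
  -- Frattini
  have hfrat : ∀ x : X, ∃ n ∈ pPrimeCore p X, n * x ∈ normalizer (P₀ : Set X) := by
    intro x
    have h1 : cj x P₀ ≤ (S : Subgroup X) ⊔ pPrimeCore p X := by
      have h2 : cj x P₀ ≤ pPrimePCore p X := by
        rintro _ ⟨y, hy, rfl⟩
        exact hMn.conj_mem y (hsyl.1 hy) x
      refine h2.trans ?_
      rw [← hM, sup_comm]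
      exact sup_le_sup_right (hP₀ ▸ inf_le_left) _
    obtain ⟨n, hn, hle⟩ := Cfsg.Agent.Lib.Helper9.exists_conj_le_of_le_sup S _ (hsyl.2.1.map _) h1
    refine ⟨n, hn, ?_⟩
    apply Cfsg.Agent.Lib.Helper1.mem_normalizer_of_conj_mem
    intro u hu
    rw [hP₀]
    refine Subgroup.mem_inf.mpr ⟨?_, hMn.conj_mem u (hsyl.1 hu) _⟩
    have h3 : n * (x * u * x⁻¹) * n⁻¹ ∈ (S : Subgroup X) := hle ⟨_, ⟨u, hu, rfl⟩, rfl⟩
    have h4 : n * x * u * (n * x)⁻¹ = n * (x * u * x⁻¹) * n⁻¹ := by group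
    rw [h4]; exact h3
  -- the subgroup `Q₀ = Q N`
  obtain ⟨Q₀, hQ₀⟩ : ∃ Q₀, Q₀ = Q ⊔ pPrimeCore p X := ⟨_, rfl⟩
  have hQ₀p : (Nat.card Q₀).Coprime p := by
    have h1 := Cfsg.Agent.Lib.Helper9.card_sup_dvd_mul Q (pPrimeCore p X)
      (by rw [normalizer_eq_top]; exact le_top)
    rw [← hQ₀] at h1
    exact Nat.Coprime.of_dvd_left h1 (Nat.Coprime.mul_left hQ hNp)
  have hAQ₀ : A ≤ normalizer (Q₀ : Set X) := by
    intro a ha
    apply Cfsg.Agent.Lib.Helper1.mem_normalizer_of_conj_mem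
    intro u hu
    rw [hQ₀] at hu ⊢
    obtain ⟨y, hy, n, hn, rfl⟩ := mem_sup_of_normal_right.mp hu
    have h1 : a * (y * n) * a⁻¹ = (a * y * a⁻¹) * (a * n * a⁻¹) := by group
    rw [h1]
    exact mul_mem (mem_sup_left ((mem_normalizer_iff.mp (hAQ ha) y).mp hy))
      (mem_sup_right (hNn.conj_mem n hn a))
  have hAP₀ : A ≤ normalizer (P₀ : Set X) := by
    intro a ha
    apply Cfsg.Agent.Lib.Helper1.mem_normalizer_of_conj_mem
    intro u hu
    rw [hP₀] at hu ⊢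
    exact Subgroup.mem_inf.mpr ⟨mul_mem (mul_mem (hAS ha) (Subgroup.mem_inf.mp hu).1) (inv_mem (hAS ha)),
      hMn.conj_mem u (Subgroup.mem_inf.mp hu).2 a⟩
  have hK := key (Q₀ ⊓ normalizer (P₀ : Set X))
    (Nat.Coprime.of_dvd_left (Subgroup.card_dvd_of_le inf_le_left) hQ₀p)
    (Cfsg.Agent.Lib.Helper1.le_normalizer_inf hAQ₀ (hAP₀.trans le_normalizer)) inf_le_right
  -- `Q₁ ≤ N`
  have hQ₁N : Q₀ ⊓ normalizer (P₀ : Set X) ≤ pPrimeCore p X := by
    apply Cfsg.Agent.Lib.Helper9.le_of_le_normalizer_of_coprime_relIndex (K := pPrimePCore p X)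
      (hK.trans hC) (by rw [normalizer_eq_top]; exact le_top)
    -- the relative index is a power of `p`
    have h1 : (pPrimeCore p X).relIndex (pPrimePCore p X) ∣ Nat.card P₀ := by
      rw [← hM, sup_comm, Subgroup.relIndex_sup_right]
      exact Subgroup.relIndex_dvd_card _ _
    obtain ⟨n, hn⟩ := IsPGroup.iff_card.mp hsyl.2.1
    rw [hn] at h1
    exact Nat.Coprime.of_dvd_right h1 (Nat.Coprime.pow_right n
      (Nat.Coprime.of_dvd_left (Subgroup.card_dvd_of_le inf_le_left) hQ₀p))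
  intro x hx
  obtain ⟨n, hn, hnx⟩ := hfrat x
  have h1 : n * x ∈ Q₀ ⊓ normalizer (P₀ : Set X) := by
    refine Subgroup.mem_inf.mpr ⟨?_, hnx⟩
    rw [hQ₀]
    exact mul_mem (mem_sup_right hn) (mem_sup_left hx)
  have h2 : x = n⁻¹ * (n * x) := by group
  rw [h2]
  exact mul_mem (inv_mem hn) (hQ₁N h1)

/-- elements of `A ∩ P` centralize an `A`-invariant `p'`-subgroup normalizing `P` -/
theorem mem_centralizer_of_mem_inf {p : ℕ} {P K : Subgroup X} (hP : IsPGroup p P)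
    [Fact p.Prime] (hK : (Nat.card K).Coprime p) (hKP : K ≤ normalizer (P : Set X)) {x : X} (hxP : x ∈ P)
    (hxK : x ∈ normalizer (K : Set X)) : x ∈ centralizer (K : Set X) := by
  have hdisj : K ⊓ P = ⊥ := by
    obtain ⟨n, hn⟩ := IsPGroup.iff_card.mp hP
    exact (Cfsg.Agent.Lib.Helper1.disjoint_of_coprime_card (by
      rw [hn]; exact Nat.Coprime.pow_right n hK)).eq_bot
  rw [mem_centralizer_iff]
  intro k hk
  have h1 : x * k * x⁻¹ * k⁻¹ ∈ K ⊓ P := by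
    refine Subgroup.mem_inf.mpr ⟨mul_mem ((mem_normalizer_iff.mp hxK k).mp hk) (inv_mem hk), ?_⟩
    have h2 : x * k * x⁻¹ * k⁻¹ = x * (k * x⁻¹ * k⁻¹) := by group
    rw [h2]
    exact mul_mem hxP ((mem_normalizer_iff.mp (hKP hk) x⁻¹).mp (inv_mem hxP))
  rw [hdisj, mem_bot] at h1
  calc k * x = (x * k * x⁻¹ * k⁻¹)⁻¹ * (x * k) := by group
    _ = x * k := by rw [h1]; simp

/-- **Invariant `p'`-subgroups, `p` odd.** -/
theorem inv_le_pPrimeCore_odd (p : ℕ) [hpp : Fact p.Prime] (hp : p ≠ 2) (hX : IsPConstrained p X)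
    (A : Subgroup X) (hAp : IsPGroup p A)
    (hΩ : ∀ x ∈ centralizer (A : Set X), orderOf x = p → x ∈ A) (Q : Subgroup X)
    (hQ : ¬ p ∣ Nat.card Q) (hAQ : A ≤ normalizer (Q : Set X)) : Q ≤ pPrimeCore p X := by
  obtain ⟨S, hAS⟩ := hAp.exists_le_sylow
  have hMn : (pPrimePCore p X).Normal :=
    (Cfsg.Agent.Lib.Helper1.pCore_normal (G := X ⧸ pPrimeCore p X) p).comap _
  refine inv_le_pPrimeCore p hX A Q S hAS ((Nat.Prime.coprime_iff_not_dvd hpp.out).mpr hQ).symm hAQ ?_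
  intro K hK hAK hKP
  have hPp : IsPGroup p ((S : Subgroup X) ⊓ pPrimePCore p X : Subgroup X) := S.2.to_le inf_le_left
  refine core_lemma p hp _ K A hPp hK hAp hKP ?_ hAK ?_
  · intro a ha
    apply Cfsg.Agent.Lib.Helper1.mem_normalizer_of_conj_mem
    intro u hu
    exact Subgroup.mem_inf.mpr ⟨mul_mem (mul_mem (hAS ha) (Subgroup.mem_inf.mp hu).1) (inv_mem (hAS ha)),
      hMn.conj_mem u (Subgroup.mem_inf.mp hu).2 a⟩
  · intro x hxP hxp hxA
    by_cases hx1 : x = 1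
    · rw [hx1]; exact one_mem _
    · have ho : orderOf x = p := orderOf_eq_prime hxp hx1
      exact mem_centralizer_of_mem_inf hPp hK hKP hxP (hAK (hΩ x hxA ho))

end Cfsg.Agent.Lib.Helper29
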