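import Mathlib
import Cfsg.Agent.Lib.Helper29.TransPC
import Cfsg.Agent.Lib.Helper29.TransBG
import Cfsg.Agent.Lib.Helper1.Cores

/-!
Solvable groups are `p`-constrained; verification of the transitivity hypothesis.
-/

set_option autoImplicit false

namespace Cfsg.Agent.Lib.Helper29

open Subgroup Cfsg
open Cfsg.Agent.Lib.Helper16 (SylIn sylIn_top sylIn_of_sylow)

theorem isPConstrained_of_quot {X : Type*} [Group X] [Finite X] (p : ℕ) [hpp : Fact p.Prime]
    (h : centralizer (pCore p (X ⧸ pPrimeCore p X) : Set (X ⧸ pPrimeCore p X)) ≤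
      pCore p (X ⧸ pPrimeCore p X)) : IsPConstrained p X := by
  intro P x hx
  have hNn : (pPrimeCore p X).Normal := (Cfsg.Agent.Lib.Helper1.pPrimeCore_spec p).1
  have hQn : (pCore p (X ⧸ pPrimeCore p X)).Normal := Cfsg.Agent.Lib.Helper1.pCore_normal p
  have hQp : IsPGroup p (pCore p (X ⧸ pPrimeCore p X)) := Cfsg.Agent.Lib.Helper1.pCore_isPGroup p
  obtain ⟨S⟩ : Nonempty (Sylow p X) := inferInstance
  have hQS : pCore p (X ⧸ pPrimeCore p X) ≤ (S : Subgroup X).map (QuotientGroup.mk' (pPrimeCore p X)) :=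
    hQp.le_sylow_of_normal (S.mapSurjective (QuotientGroup.mk'_surjective _))
  have hMn : (pPrimePCore p X).Normal := hQn.comap _
  have hsyl₀ : SylIn p ((S : Subgroup X) ⊓ pPrimePCore p X) (pPrimePCore p X) :=
    (sylIn_top S).inf_normal le_top (by rw [normalizer_eq_top])
  have hmap : ((S : Subgroup X) ⊓ pPrimePCore p X).map (QuotientGroup.mk' (pPrimeCore p X)) =
      pCore p (X ⧸ pPrimeCore p X) := Cfsg.Agent.Lib.Helper9.map_inf_comap_eq S _ hQS
  obtain ⟨m, -, hconj⟩ := hsyl₀.exists_conj (sylIn_of_sylow P)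
  show QuotientGroup.mk' (pPrimeCore p X) x ∈ pCore p (X ⧸ pPrimeCore p X)
  apply h
  rw [mem_centralizer_iff]
  intro y hy
  have h1 : (QuotientGroup.mk' (pPrimeCore p X) m)⁻¹ * y * (QuotientGroup.mk' (pPrimeCore p X) m)⁻¹⁻¹ ∈
      pCore p (X ⧸ pPrimeCore p X) := hQn.conj_mem y hy _
  rw [← hmap] at h1
  obtain ⟨z, hz, hzy⟩ := h1
  have h2 : m * z * m⁻¹ ∈ (P : Subgroup ↥(pPrimePCore p X)).map (pPrimePCore p X).subtype := by
    rw [hconj]
    exact ⟨z, hz, rfl⟩
  have h3 := (mem_centralizer_iff.mp hx) _ h2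
  have h4 : QuotientGroup.mk' (pPrimeCore p X) (m * z * m⁻¹) = y := by
    rw [map_mul, map_mul, hzy, map_inv]
    group
  rw [← h4, ← map_mul, ← map_mul, h3]

theorem isPConstrained_of_solvable {X : Type*} [Group X] [Finite X] [Group.IsSolvable X] (p : ℕ)
    [hpp : Fact p.Prime] : IsPConstrained p X := by
  haveI hNn : (pPrimeCore p X).Normal := (Cfsg.Agent.Lib.Helper1.pPrimeCore_spec p).1
  apply isPConstrained_of_quot
  haveI : Group.IsSolvable (X ⧸ pPrimeCore p X) :=
    Group.isSolvable_of_surjective (QuotientGroup.mk'_surjective (pPrimeCore p X))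
  exact Cfsg.Agent.Lib.Helper1.centralizer_pCore_le p (Cfsg.Agent.Lib.Helper1.pPrimeCore_quotient_eq_bot p)

variable {G : Type*} [Group G] [Finite G]

/-- relative form of `inv_le_pPrimeCore_odd` -/
theorem inv_le_map_pPrimeCore_odd (p : ℕ) [hpp : Fact p.Prime] (hp : p ≠ 2) (X : Subgroup G)
    (hX : IsPConstrained p X) (A : Subgroup G) (hAX : A ≤ X) (hAp : IsPGroup p A)
    (hΩ : ∀ x ∈ centralizer (A : Set G), orderOf x = p → x ∈ A) (Y : Subgroup G) (hYX : Y ≤ X)
    (hY : ¬ p ∣ Nat.card Y) (hAY : A ≤ normalizer (Y : Set G)) :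
    Y ≤ (pPrimeCore p X).map X.subtype := by
  have h1 := inv_le_pPrimeCore_odd p hp hX (A.subgroupOf X) hAp.comap_subtype (by
      intro x hx ho
      rw [mem_subgroupOf]
      apply hΩ
      · rw [mem_centralizer_iff]
        intro a ha
        exact congrArg Subtype.val ((mem_centralizer_iff.mp hx) ⟨a, hAX ha⟩ (mem_subgroupOf.mpr ha))
      · rw [Subgroup.orderOf_coe]; exact ho)
    (Y.subgroupOf X) (by rw [Nat.card_congr (Subgroup.subgroupOfEquivOfLe hYX).toEquiv]; exact hY) (by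
      intro a ha
      rw [mem_normalizer_iff]
      intro y
      exact (mem_normalizer_iff.mp (hAY (mem_subgroupOf.mp ha)) (y : G)))
  intro y hy
  exact ⟨⟨y, hYX hy⟩, h1 (mem_subgroupOf.mpr hy), rfl⟩

theorem map_pPrimeCore_le_piCoreOf (p : ℕ) [hpp : Fact p.Prime] (X : Subgroup G) {n : ℕ}
    (hn : ∀ q : ℕ, q.Prime → q ∣ n → q = p) :
    (pPrimeCore p X).map X.subtype ≤ piCoreOf (primesNotDvd n) X := by
  apply Subgroup.map_mono
  apply le_sSup
  refine ⟨(Cfsg.Agent.Lib.Helper1.pPrimeCore_spec p).1, ?_⟩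
  intro q hq hd
  refine ⟨hq, fun h => ?_⟩
  have h1 := hn q hq h
  rw [h1] at hd
  exact (Nat.Prime.coprime_iff_not_dvd hpp.out).mp (Cfsg.Agent.Lib.Helper1.pPrimeCore_spec (G := X) p).2.symm hd

theorem TH_of_odd (hG : IsMinSimpleOddOrder G) (p : ℕ) [hpp : Fact p.Prime] (hp : p ∣ Nat.card G)
    (A : Subgroup G) (hAp : IsPGroup p A) (hA1 : A ≠ ⊥) (hAc : IsMulCommutative A)
    (hΩ : ∀ x ∈ centralizer (A : Set G), orderOf x = p → x ∈ A) : TransitivityHypothesis A := by
  have hp2 : p ≠ 2 := by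
    intro h
    rw [h] at hp
    exact (Nat.not_even_iff_odd.mpr hG.1) (even_iff_two_dvd.mpr hp)
  obtain ⟨n, hn⟩ := IsPGroup.iff_card.mp hAp
  have hpA : p ∣ Nat.card A := by
    rcases n with _ | n
    · exfalso
      apply hA1
      rw [pow_zero] at hn
      exact (Subgroup.card_eq_one).mp hn
    · rw [hn]; exact dvd_pow_self p (Nat.succ_ne_zero n)
  refine ⟨hA1, ?_, ?_⟩
  · intro h
    apply hG.2.2.1
    refine ⟨⟨fun x y => ?_⟩⟩
    have := hAc.is_comm.comm ⟨x, h ▸ mem_top x⟩ ⟨y, h ▸ mem_top y⟩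
    exact congrArg Subtype.val this
  · intro X hX hAX
    haveI : Group.IsSolvable X := hG.2.2.2 X hX
    apply le_antisymm
    · apply sSup_le
      rintro Y ⟨hYX, hYπ, hAY⟩
      refine le_trans ?_ (map_pPrimeCore_le_piCoreOf p X (n := Nat.card A) (by
        intro q hq hd
        rw [hn] at hd
        exact (Nat.prime_dvd_prime_iff_eq hq hpp.out).mp (hq.dvd_of_dvd_pow hd)))
      apply inv_le_map_pPrimeCore_odd p hp2 X (isPConstrained_of_solvable p) A hAX hAp hΩ Y hYX _ hAY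
      intro hd
      exact (hYπ p hpp.out hd).2 hpA
    · exact le_sSup ⟨piCoreOf_le _ _, piCoreOf_pi _ _, hAX.trans (le_normalizer_piCoreOf _ _)⟩

/-- a self-centralizing normal subgroup of a Sylow subgroup contains all `p`-elements of its centralizer -/
theorem mem_of_isSCN (p : ℕ) [hpp : Fact p.Prime] (P : Sylow p G) (A : Subgroup G)
    (h : IsSCN (P : Subgroup G) A) (x : G) (hx : x ∈ centralizer (A : Set G))
    (hxp : IsPGroup p (zpowers x)) : x ∈ A := by
  obtain ⟨hAP, hPA, hC⟩ := h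
  have h1 : SylIn p (P : Subgroup G) (normalizer (A : Set G)) := (sylIn_top P).mono hPA le_top
  have h2 : SylIn p ((P : Subgroup G) ⊓ centralizer (A : Set G)) (centralizer (A : Set G)) :=
    h1.inf_normal (centralizer_le_normalizer _)
      (Cfsg.Agent.Lib.Helper16.normalizer_le_normalizer_centralizer A)
  rw [hC] at h2
  obtain ⟨c, hc, hle⟩ := h2.exists_conj_le hxp (zpowers_le.mpr hx)
  have h3 : c * x * c⁻¹ ∈ A := hle ⟨x, mem_zpowers x, rfl⟩
  have h4 := (mem_centralizer_iff.mp hc) _ h3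
  have h5 : x = c * x * c⁻¹ := by
    calc x = c⁻¹ * (c * x * c⁻¹ * c) := by group
      _ = c⁻¹ * (c * (c * x * c⁻¹)) := by rw [h4]
      _ = c * x * c⁻¹ := by group
  rw [h5]; exact h3

end Cfsg.Agent.Lib.Helper29
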